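import Cfsg.Agent.H963.QA.WM
import Cfsg.Agent.H963.QA.RowPsu
import Cfsg.Agent.H389.QU.Emb

/-!
# S4979, layer (A), row `PSU_6(3)` (helper299)

`p = 3`, `p = 61` by the CR criterion, `p = 5` by helper389's `u63_five`, `p = 7, 13` by the weights of a torus of order `91`.
-/

set_option autoImplicit false

open Cfsg

namespace Cfsg.Agent.H299.QA.U63

open Cfsg.Agent.H152.QA Cfsg.Agent.H80.Fpf Cfsg.Agent.H700.FpfPsu Cfsg.Agent.H963.QA

theorem card_u63 {F : Type} [Field F] [Fintype F] (hF : Fintype.card F = 3 ^ 2) :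
    Nat.card (PSU 6 F 3) = 22837472432087040 := by
  have h1 := Cfsg.Agent.H389.QU.card_psu hF (n := 6) (by norm_num)
  have h2 : ∏ i ∈ Finset.range (6 - 1), Cfsg.Agent.H948.UProd.ph 3 (i + 1) = 8 * 28 * 80 * 244 * 728 := by
    decide
  rw [h2] at h1
  norm_num at h1
  omega

/-- CR with the exact `p'`-part bound -/
theorem false_of_cr' {p q : ℕ} {L V S : Type} [Group L] [Finite L] [AddCommGroup V] [Finite V] [DistribMulAction L V]
    [Group S] [Finite S] [IsSimpleGroup S] {π : L →* S} {N : Subgroup L} {φ : N →* ℂˣ}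
    (h : Sit (V := V) p q N φ) (hπ : IsCover π) {B : ℕ} (hB : MinDeg S B) {q0 A a k : ℕ}
    (hq0 : q0 ≤ q) (hS : Nat.card S = p ^ a * A) (hA : 0 < A) (hk : A < (p + 1) ^ k) (hnum : A ^ k < q0 ^ B) : False := by
  obtain ⟨m, hm, hpm, hle⟩ := Cfsg.Agent.H306.QA.Sit.cr h hπ hB
  have hp := h.hp
  set C := ordCompl[p] (Nat.card S) with hC
  have h2 : C ≤ A := by
    have h3 : C ∣ p ^ a * A := by rw [← hS]; exact Nat.ordCompl_dvd _ _
    have h4 : Nat.Coprime C (p ^ a) := (Nat.Coprime.pow_left a (Nat.coprime_ordCompl hp Nat.card_pos.ne')).symm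
    exact Nat.le_of_dvd hA (h4.dvd_of_dvd_mul_left h3)
  have h3 : (p + 1) ^ (m - 1) < (p + 1) ^ k := (hpm.trans h2).trans_lt hk
  have h4 : m - 1 < k := (Nat.pow_lt_pow_iff_right (by have := hp.two_le; omega)).1 h3
  have h5 : q ^ B ≤ A ^ k :=
    calc q ^ B ≤ C ^ m := hle
      _ ≤ A ^ m := Nat.pow_le_pow_left h2 _
      _ ≤ A ^ k := Nat.pow_le_pow_right hA (by omega)
  have h6 : q0 ^ B ≤ q ^ B := Nat.pow_le_pow_left hq0 _
  omega

set_option exponentiation.threshold 5000 in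
/-- **S4979, layer (A), row `PSU_6(3)`** -/
theorem row_u63 {F : Type} [Field F] [Fintype F] (hF : Fintype.card F = 3 ^ 2) : NoSit (PSU 6 F 3) := by
  classical
  intro p q L V _ _ _ _ _ π N φ hπ h
  have := Cfsg.Agent.S0283.result hF 6 (by norm_num) (by norm_num)
  have hcard := card_u63 hF
  have hmul : MultDvd (PSU 6 F 3) 2 := by
    have h1 := multDvd (n := 6) hF (by norm_num) (by norm_num) (by simp)
    have h2 : Nat.gcd 6 (3 + 1) = 2 := by norm_num
    rwa [h2] at h1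
  have hpS : p ∣ Nat.card (PSU 6 F 3) := Cfsg.Agent.H306.QA.p_dvd h hπ
  have hqS : ¬ q ∣ Nat.card (PSU 6 F 3) := Cfsg.Agent.H306.QA.q_not_dvd h hπ
  rw [hcard] at hpS hqS
  have hq11 : 11 ≤ q := by
    by_contra hcon
    have h2 := h.hq.two_le
    have hq := h.hq
    interval_cases q <;> revert hq hqS <;> norm_num
  have hB : MinDeg (PSU 6 F 3) 182 := by
    have := Cfsg.Agent.H389.QU.minDeg_even (n := 6) hF (by norm_num) (by decide) (by omega) (by omega) (by omega)
    norm_num at this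
    exact this
  have hpc : p = 3 ∨ p = 5 ∨ p = 7 ∨ p = 13 ∨ p = 61 := by
    have h1 : (22837472432087040 : ℕ) = 2 ^ 13 * (3 ^ 15 * (5 * (7 ^ 2 * (13 * 61)))) := by norm_num
    rw [h1] at hpS
    have hp := h.hp
    rcases hp.dvd_mul.1 hpS with h2 | h2
    · exact absurd ((Nat.prime_dvd_prime_iff_eq hp Nat.prime_two).1 (hp.dvd_of_dvd_pow h2)) h.odd
    rcases hp.dvd_mul.1 h2 with h2 | h2
    · exact Or.inl ((Nat.prime_dvd_prime_iff_eq hp Nat.prime_three).1 (hp.dvd_of_dvd_pow h2))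
    rcases hp.dvd_mul.1 h2 with h2 | h2
    · exact Or.inr (Or.inl ((Nat.prime_dvd_prime_iff_eq hp Nat.prime_five).1 h2))
    rcases hp.dvd_mul.1 h2 with h2 | h2
    · exact Or.inr (Or.inr (Or.inl ((Nat.prime_dvd_prime_iff_eq hp (by norm_num)).1 (hp.dvd_of_dvd_pow h2))))
    rcases hp.dvd_mul.1 h2 with h2 | h2
    · exact Or.inr (Or.inr (Or.inr (Or.inl ((Nat.prime_dvd_prime_iff_eq hp (by norm_num)).1 h2))))
    · exact Or.inr (Or.inr (Or.inr (Or.inr ((Nat.prime_dvd_prime_iff_eq hp (by norm_num)).1 h2))))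
  rcases hpc with rfl | rfl | rfl | rfl | rfl
  · -- `p = 3`
    exact false_of_cr' h hπ hB (q0 := 11) (A := 1591582720) (a := 15) (k := 16) hq11
      (by rw [hcard]; norm_num) (by norm_num) (by norm_num) (by norm_num)
  · -- `p = 5`
    obtain ⟨G, _, _, _, f, ψ, -, -, -, hψ, -, hP⟩ := h.exists_pSit hπ
    exact Cfsg.Agent.H389.QU.u63_five hF hP hψ hq11
  · -- `p = 7`
    obtain ⟨_, hP⟩ := h.exists_pSit_prime hπ (by norm_num) hmul
    have h1 := PSit.wm hF (by norm_num) hP (k := 3) (M := 91) (by norm_num) (by norm_num) (by norm_num) (by norm_num)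
      (by norm_num) (by norm_num)
    rw [hcard] at h1
    have h2 : 11 ^ ((7 - 1) * (91 / 7)) ≤ q ^ ((7 - 1) * (91 / 7)) := Nat.pow_le_pow_left hq11 _
    have h3 := h2.trans h1
    norm_num at h3
  · -- `p = 13`
    obtain ⟨_, hP⟩ := h.exists_pSit_prime hπ (by norm_num) hmul
    have h1 := PSit.wm hF (by norm_num) hP (k := 3) (M := 91) (by norm_num) (by norm_num) (by norm_num) (by norm_num)
      (by norm_num) (by norm_num)
    rw [hcard] at h1
    have h2 : 11 ^ ((13 - 1) * (91 / 13)) ≤ q ^ ((13 - 1) * (91 / 13)) := Nat.pow_le_pow_left hq11 _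
    have h3 := h2.trans h1
    norm_num at h3
  · -- `p = 61`
    exact Sit.false_of_cr h hπ hB (p0 := 61) (q0 := 11) (A := 374384793968640) (k := 9) le_rfl hq11
      (by rw [hcard]) (by norm_num) (by norm_num) (by norm_num)

end Cfsg.Agent.H299.QA.U63
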